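import Mathlib

/-! Arithmetic for groups of order dividing `|L₂(p²)| = p² M (p² + 1)`, `2 M + 1 = p²`. -/

set_option autoImplicit false

namespace Cfsg.Agent.PSq

theorem ge_of_modEq {p d : ℕ} (hp : 1 < p) (h : d ≡ 1 [MOD p]) (h1 : d ≠ 1) : p + 1 ≤ d := by
  have h2 : d % p = 1 := by rw [h]; exact Nat.mod_eq_of_lt hp
  have h3 := Nat.div_add_mod d p
  rcases Nat.eq_zero_or_pos (d / p) with h4 | h4
  · rw [h4] at h3; omega
  · nlinarith

theorem modEq_cofactor {p d u : ℕ} (h : d ≡ 1 [MOD p]) (h' : d * u ≡ 1 [MOD p]) :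
    u ≡ 1 [MOD p] := by
  have := (h.mul_right u).symm.trans h'
  rwa [one_mul] at this

theorem dvd_sq_add_one {p d : ℕ} (hp : 1 < p) (hd : d ∣ p ^ 2 + 1) (h : d ≡ 1 [MOD p]) :
    d = 1 ∨ d = p ^ 2 + 1 := by
  obtain ⟨u, hu⟩ := hd
  have h1 : d * u ≡ 1 [MOD p] := by
    rw [← hu]
    exact (Nat.modEq_iff_dvd' (by omega)).2 (by simp) |>.symm
  have h2 := modEq_cofactor h h1
  by_contra hc
  push Not at hc
  have h3 := ge_of_modEq hp h hc.1
  have h4 : u ≠ 1 := by rintro rfl; omega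
  have h5 := ge_of_modEq hp h2 h4
  nlinarith

theorem exists_half {p : ℕ} (hp : p.Prime) (h5 : 5 < p) : ∃ b, p = 2 * b + 1 :=
  hp.odd_of_ne_two (by omega)

theorem two_pow_dvd {p M c : ℕ} (hp : p.Prime) (h5 : 5 < p) (hM : 2 * M + 1 = p ^ 2)
    (h : 2 ^ c ∣ p ^ 2 * (M * (p ^ 2 + 1))) :
    (p % 4 = 1 ∧ 2 ^ c ∣ 2 * (p - 1)) ∨ (p % 4 = 3 ∧ 2 ^ c ∣ 2 * (p + 1)) := by
  obtain ⟨b, rfl⟩ := exists_half hp h5
  have hM' : M = 2 * (b * (b + 1)) := by nlinarith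
  have e : (2 * b + 1) ^ 2 * (M * ((2 * b + 1) ^ 2 + 1)) =
      (4 * (b * (b + 1))) * ((2 * b + 1) ^ 2 * (2 * (b * (b + 1)) + 1)) := by rw [hM']; ring
  rw [e] at h
  have o1 : Nat.Coprime (2 ^ c) ((2 * b + 1) ^ 2 * (2 * (b * (b + 1)) + 1)) := by
    refine Nat.Coprime.pow_left _ ((Nat.coprime_two_left).2 ?_)
    exact (Odd.pow ⟨b, rfl⟩).mul ⟨_, rfl⟩
  have h1 := o1.dvd_of_dvd_mul_right h
  rcases Nat.even_or_odd' b with ⟨a, rfl | rfl⟩
  · left
    refine ⟨by omega, ?_⟩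
    have o2 : Nat.Coprime (2 ^ c) (2 * a + 1) :=
      Nat.Coprime.pow_left _ ((Nat.coprime_two_left).2 ⟨a, rfl⟩)
    rw [← mul_assoc] at h1
    have := o2.dvd_of_dvd_mul_right h1
    rwa [show 2 * (2 * (2 * a) + 1 - 1) = 4 * (2 * a) by omega]
  · right
    refine ⟨by omega, ?_⟩
    have o2 : Nat.Coprime (2 ^ c) (2 * a + 1) :=
      Nat.Coprime.pow_left _ ((Nat.coprime_two_left).2 ⟨a, rfl⟩)
    rw [mul_comm (2 * a + 1), ← mul_assoc] at h1
    have := o2.dvd_of_dvd_mul_right h1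
    rwa [show 2 * (2 * (2 * a + 1) + 1 + 1) = 4 * (2 * a + 1 + 1) by omega]

theorem prime_pow_eq {p M r a : ℕ} (hp : p.Prime) (h5 : 5 < p) (hM : 2 * M + 1 = p ^ 2)
    (hr : r.Prime) (h : r ^ a ∣ p ^ 2 * (M * (p ^ 2 + 1))) (h1 : r ^ a ≠ 1)
    (hm : r ^ a ≡ 1 [MOD p]) : r = 2 ∧ r ^ a = p + 1 := by
  have hge := ge_of_modEq hp.one_lt hm h1
  have ha : a ≠ 0 := by rintro rfl; simp at h1
  obtain ⟨k, hk⟩ : ∃ k, r ^ a = p * k + 1 := by
    have h2 : r ^ a % p = 1 := by rw [hm]; exact Nat.mod_eq_of_lt hp.one_lt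
    exact ⟨r ^ a / p, by have := Nat.div_add_mod (r ^ a) p; omega⟩
  rcases hr.eq_two_or_odd' with rfl | ho
  · refine ⟨rfl, ?_⟩
    have hle : 2 ^ a ≤ 2 * (p + 1) := by
      rcases two_pow_dvd hp h5 hM h with ⟨-, h2⟩ | ⟨-, h2⟩
      · have := Nat.le_of_dvd (by omega) h2; omega
      · exact Nat.le_of_dvd (by omega) h2
    have he : 2 ∣ 2 ^ a := dvd_pow_self 2 ha
    have hk3 : k < 3 := by by_contra hh; nlinarith
    interval_cases k <;> omega
  · exfalso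
    obtain ⟨b, rfl⟩ := exists_half hp h5
    have hM' : M = 2 * (b * (b + 1)) := by nlinarith
    have hrp : r ≠ 2 * b + 1 := by
      rintro rfl
      have : (2 * b + 1) ∣ (2 * b + 1) * k + 1 := hk ▸ dvd_pow_self _ ha
      rw [Nat.dvd_add_right (dvd_mul_right _ _), Nat.dvd_one] at this
      omega
    have c0 : Nat.Coprime (r ^ a) ((2 * b + 1) ^ 2) :=
      Nat.Coprime.pow _ _ ((Nat.coprime_primes hr hp).2 hrp)
    have h2 := c0.dvd_of_dvd_mul_left h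
    have r2 : Nat.Coprime (r ^ a) 2 :=
      Nat.Coprime.pow_left _ ((Nat.coprime_two_right).2 ho)
    rw [hM', mul_assoc] at h2
    have h3 := r2.dvd_of_dvd_mul_left h2
    have hodd : Odd (r ^ a) := ho.pow
    by_cases d1 : r ∣ (2 * b + 1) ^ 2 + 1
    · have c1 : Nat.Coprime (r ^ a) (b * (b + 1)) := by
        refine Nat.Coprime.pow_left _ ((Nat.Prime.coprime_iff_not_dvd hr).2 fun hh => ?_)
        have e : (2 * b + 1) ^ 2 + 1 = 4 * (b * (b + 1)) + 2 := by ring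
        rw [e, Nat.dvd_add_right (hh.mul_left 4)] at d1
        have := (Nat.prime_dvd_prime_iff_eq hr Nat.prime_two).1 d1
        subst this
        exact absurd ho (by decide)
      rcases dvd_sq_add_one hp.one_lt (c1.dvd_of_dvd_mul_left h3) hm with h4 | h4
      · exact h1 h4
      · rw [h4] at hodd
        obtain ⟨c, hc⟩ := hodd
        have e : (2 * b + 1) ^ 2 + 1 = 2 * (2 * (b * (b + 1)) + 1) := by ring
        omega
    · have c1 : Nat.Coprime (r ^ a) ((2 * b + 1) ^ 2 + 1) :=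
        Nat.Coprime.pow_left _ ((Nat.Prime.coprime_iff_not_dvd hr).2 d1)
      have h4 := c1.dvd_of_dvd_mul_right h3
      by_cases d2 : r ∣ b
      · have c2 : Nat.Coprime (r ^ a) (b + 1) := by
          refine Nat.Coprime.pow_left _ ((Nat.Prime.coprime_iff_not_dvd hr).2 fun hh => ?_)
          rw [Nat.dvd_add_right d2, Nat.dvd_one] at hh
          exact hr.one_lt.ne' hh
        have := Nat.le_of_dvd (by omega) (c2.dvd_of_dvd_mul_right h4)
        omega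
      · have c2 : Nat.Coprime (r ^ a) b :=
          Nat.Coprime.pow_left _ ((Nat.Prime.coprime_iff_not_dvd hr).2 d2)
        have := Nat.le_of_dvd (by omega) (c2.dvd_of_dvd_mul_left h4)
        omega

theorem eq_sq_add_one {p M n : ℕ} (hp : 1 < p) (hM : 2 * M + 1 = p ^ 2)
    (h : n ∣ M * (p ^ 2 + 1)) (h1 : n ≠ 1) (hm : n ≡ 1 [MOD p ^ 2]) : n = p ^ 2 + 1 := by
  have hq : 1 < p ^ 2 := by nlinarith
  generalize p ^ 2 = q at *
  have hge := ge_of_modEq hq hm h1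
  obtain ⟨u, hu⟩ := h
  obtain ⟨k, hk⟩ : ∃ k, n = q * k + 1 := by
    have h2 : n % q = 1 := by rw [hm]; exact Nat.mod_eq_of_lt hq
    exact ⟨n / q, by have := Nat.div_add_mod n q; omega⟩
  have e : n * (2 * u) + 1 = q * q := by subst hM; nlinarith
  have d : q ∣ 2 * u + 1 := by
    have : q * q = q * (k * (2 * u)) + (2 * u + 1) := by rw [← e, hk]; ring
    exact (Nat.dvd_add_right (dvd_mul_right _ _)).1 (this ▸ dvd_mul_right q q)
  have d1 := Nat.le_of_dvd (by omega) d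
  by_contra hne
  have : q + 2 ≤ n := by omega
  nlinarith

theorem not_dvd_rest {p M : ℕ} (hp : p.Prime) (hM : 2 * M + 1 = p ^ 2) :
    ¬ p ∣ M * (p ^ 2 + 1) := by
  have hpp : p ∣ p ^ 2 := dvd_pow_self p two_ne_zero
  intro h
  rcases hp.dvd_mul.1 h with h | h
  · have : p ∣ 2 * M + 1 := hM ▸ hpp
    rw [Nat.dvd_add_right (h.mul_left 2), Nat.dvd_one] at this
    exact hp.one_lt.ne' this
  · rw [Nat.dvd_add_right hpp, Nat.dvd_one] at h
    exact hp.one_lt.ne' h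

theorem not_four_dvd {p : ℕ} (hp : p.Prime) (h5 : 5 < p) (k : ℕ) :
    ¬ 4 ∣ p ^ k * (p ^ 2 + 1) := by
  obtain ⟨b, rfl⟩ := exists_half hp h5
  intro h
  have c : Nat.Coprime (2 ^ 2) ((2 * b + 1) ^ k) :=
    Nat.Coprime.pow _ _ ((Nat.coprime_two_left).2 ⟨b, rfl⟩)
  have := c.dvd_of_dvd_mul_left h
  have e : (2 * b + 1) ^ 2 + 1 = 4 * (b * (b + 1)) + 2 := by ring
  omega

/-- The orders in Walter's list do not occur in the Mersenne case. -/
theorem walter_arith {p M r s : ℕ} (hp : p.Prime) (h5 : 5 < p) (hM : 2 * M + 1 = p ^ 2)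
    (hr : 2 ^ r = p + 1) (hs : s ∣ p ^ 2 * (M * (p ^ 2 + 1))) (h1 : p ∣ s) (h2 : p + 1 ∣ s)
    (h : (∃ a, s = 2 ^ a * ((2 ^ a) ^ 2 - 1) ∧ 2 ≤ a) ∨
      (∃ q, (q % 8 = 3 ∨ q % 8 = 5) ∧ 2 * s = q * (q ^ 2 - 1)) ∨
      (∃ m, s = (3 ^ (2 * m + 1)) ^ 3 * ((3 ^ (2 * m + 1)) ^ 3 + 1) * (3 ^ (2 * m + 1) - 1)) ∨
      s = 175560) : False := by
  have hr3 : 3 ≤ r := by
    by_contra hh
    have : r ≤ 2 := by omega
    interval_cases r <;> omega
  have h8 : 8 ∣ p + 1 := hr ▸ pow_dvd_pow 2 hr3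
  have h7 : ¬ 16 ∣ s → p = 7 := fun h16 => by
    by_contra hne
    have : 4 ≤ r := by
      by_contra hh
      have : r = 3 := by omega
      subst this; omega
    exact h16 ((pow_dvd_pow 2 this).trans (hr ▸ h2))
  rcases h with ⟨a, rfl, ha⟩ | ⟨q, hq, h⟩ | ⟨m, rfl⟩ | rfl
  · have e4 : 4 ≤ 2 ^ a := by calc 4 = 2 ^ 2 := rfl
                                _ ≤ 2 ^ a := Nat.pow_le_pow_right (by norm_num) ha
    have ho : Odd ((2 ^ a) ^ 2 - 1) :=
      Nat.Even.sub_odd (Nat.one_le_pow _ _ (by omega)) ((Nat.even_pow.2 ⟨even_two, by omega⟩).pow_of_ne_zero two_ne_zero) odd_one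
    have d1 : 2 ^ r ∣ 2 ^ a := by
      rw [← hr] at h2
      exact (Nat.Coprime.pow_left _ ((Nat.coprime_two_left).2 ho)).dvd_of_dvd_mul_right h2
    have d2 : 2 ^ a ∣ 2 ^ (r + 1) := by
      rcases two_pow_dvd hp h5 hM ((Dvd.intro _ rfl).trans hs) with ⟨h3, -⟩ | ⟨-, h3⟩
      · omega
      · rwa [← hr, ← pow_succ'] at h3
    have l1 := (Nat.pow_dvd_pow_iff_le_right one_lt_two).1 d1
    have l2 := (Nat.pow_dvd_pow_iff_le_right one_lt_two).1 d2
    rcases (by omega : a = r ∨ a = r + 1) with rfl | rfl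
    · rw [hr] at hs
      have e : (p + 1) ^ 2 - 1 = (p + 2) * p := by
        rw [show (p + 1) ^ 2 = (p + 2) * p + 1 by ring]; omega
      rw [e] at hs
      have d3 : p + 2 ∣ p ^ 2 * (2 * M * (p ^ 2 + 1)) := by
        rw [show p ^ 2 * (2 * M * (p ^ 2 + 1)) = 2 * (p ^ 2 * (M * (p ^ 2 + 1))) by ring]
        exact Dvd.dvd.mul_left (((Dvd.intro _ rfl).mul_left _).trans hs) 2
      have d4 : ((p : ℤ) + 2) ∣ 60 := by
        have d5 : ((p : ℤ) + 2) ∣ (p : ℤ) ^ 2 * (((p : ℤ) ^ 2 - 1) * (p ^ 2 + 1)) := by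
          have : (2 * M : ℤ) = p ^ 2 - 1 := by
            have : ((2 * M + 1 : ℕ) : ℤ) = ((p ^ 2 : ℕ) : ℤ) := by rw [hM]
            push_cast at this; linarith
          rw [← this]; exact_mod_cast d3
        have e2 : (p : ℤ) ^ 2 * (((p : ℤ) ^ 2 - 1) * (p ^ 2 + 1)) =
            (p + 2) * (p ^ 5 - 2 * p ^ 4 + 4 * p ^ 3 - 8 * p ^ 2 + 15 * p - 30) + 60 := by ring
        rwa [e2, dvd_add_right (dvd_mul_right _ _)] at d5
      have d6 : p + 2 ∣ 60 := by exact_mod_cast d4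
      have := Nat.le_of_dvd (by norm_num) d6
      have : p ≤ 58 := by omega
      interval_cases p <;> omega
    · rw [pow_succ, hr] at h1
      have e : ((p + 1) * 2) ^ 2 - 1 = p * (4 * p + 8) + 3 := by
        rw [show ((p + 1) * 2) ^ 2 = p * (4 * p + 8) + 3 + 1 by ring]; omega
      rw [e, show (p + 1) * 2 * (p * (4 * p + 8) + 3) =
        p * ((p + 1) * 2 * (4 * p + 8) + 6) + 6 by ring, Nat.dvd_add_right (dvd_mul_right _ _)] at h1
      have := Nat.le_of_dvd (by norm_num) h1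
      have : p = 6 := by omega
      subst this
      exact absurd hp (by norm_num)
  · have d : 16 ∣ q * (q ^ 2 - 1) := by
      have := h8.trans h2
      rw [← h]; omega
    obtain ⟨c, hc⟩ : ∃ c, q = 8 * c + 3 ∨ q = 8 * c + 5 := ⟨q / 8, by omega⟩
    rcases hc with rfl | rfl
    · rw [show (8 * c + 3) ^ 2 = 16 * (4 * c ^ 2 + 3 * c) + 8 + 1 by ring, Nat.add_sub_cancel,
        show (8 * c + 3) * (16 * (4 * c ^ 2 + 3 * c) + 8) =
          16 * ((8 * c + 3) * (4 * c ^ 2 + 3 * c) + 4 * c + 1) + 8 by ring] at d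
      omega
    · rw [show (8 * c + 5) ^ 2 = 16 * (4 * c ^ 2 + 5 * c + 1) + 8 + 1 by ring, Nat.add_sub_cancel,
        show (8 * c + 5) * (16 * (4 * c ^ 2 + 5 * c + 1) + 8) =
          16 * ((8 * c + 5) * (4 * c ^ 2 + 5 * c + 1) + 4 * c + 2) + 8 by ring] at d
      omega
  · have hq : 3 ^ (2 * m + 1) % 8 = 3 := by
      rw [pow_succ, pow_mul, Nat.mul_mod, Nat.pow_mod]; norm_num
    have h27 : 27 ∣ (3 ^ (2 * m + 1)) ^ 3 := by
      rw [show (27 : ℕ) = 3 ^ 3 by norm_num]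
      exact pow_dvd_pow_of_dvd (dvd_pow_self 3 (by omega)) 3
    generalize 3 ^ (2 * m + 1) = q at *
    obtain ⟨c, rfl⟩ : ∃ c, q = 8 * c + 3 := ⟨q / 8, by omega⟩
    have := h7 fun d => by
      have o : Nat.Coprime (2 ^ 4) ((8 * c + 3) ^ 3) :=
        Nat.Coprime.pow _ _ ((Nat.coprime_two_left).2 ⟨4 * c + 1, by ring⟩)
      rw [mul_assoc] at d
      have d' := o.dvd_of_dvd_mul_left d
      rw [show 8 * c + 3 - 1 = 8 * c + 2 by omega, show ((8 * c + 3) ^ 3 + 1) * (8 * c + 2) =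
        16 * (256 * c ^ 4 + 352 * c ^ 3 + 180 * c ^ 2 + 41 * c + 3) + 8 by ring] at d'
      omega
    subst this
    have hM' : M = 24 := by omega
    subst hM'
    have := ((h27.mul_right _).mul_right _).trans hs
    omega
  · have := h7 (by norm_num)
    subst this
    have hM' : M = 24 := by omega
    subst hM'
    omega

end Cfsg.Agent.PSq
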